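import Cfsg.Agent.Lib.GC.Fam
import Cfsg.Agent.Lib.CS.Main
import Cfsg.Agent.Lib.CS.Sub

/-!
# S5175: group theory in the model.  See `docs/MF.md`.
-/

set_option autoImplicit false

namespace Cfsg.Lib.MF

open Subgroup Cfsg.Lib.BG Cfsg.Lib.Transfer Cfsg.Lib.Loc Cfsg.Lib.PLocal Cfsg.Lib.CGT Cfsg.Lib.PU
open Cfsg.Lib.CS Cfsg.Lib.Root Cfsg.Lib.GC
open scoped commutatorElement MatrixGroups Matrix

variable {G : Type*} [Group G] [Finite G] {K : Type} [Field K] [Finite K] {A B D L M T : Subgroup G} {g : G}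

local notation "𝐐" => pCoreOf 2
local notation "𝐑" => pResidualOf 2

/-- `E = 𝐑 L` lies in a subnormal block `E'` (`Sit.main`; `E ≰ M` since `L ≤ E ⊔ B`, `B ≤ M`, `Good.nle`).
`𝐖 E' ≤ O₂(G) ⊓ B ≤ 𝐐 L` (`CT.W_le_V`, `W_le_B`), which is abelian, so `E = E'` (`GC.eq_of_cent`).  By `CT.conj_eq_or`,
`g ⋆ E = E` or `g ⋆ E ≤ 𝐂(E)`; in the second case `g ⋆ 𝐖 E ≤ 𝐐 L ⊓ 𝐂(E)` has order `≥ q² > q` (`Hf.idxD`).
Finally `Gl.norm`; `𝐂(𝐐 L) ≤ 𝐐 L` by `IsChP.cent_le` (`Loc/ParChar`). -/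
theorem norm_L (h : Sit 2 T M) (hL : Good 2 (baum 2 T) M L) {s : LSec 2 K L (𝐑 L)} (k : Gl (baum 2 T) s)
    (hn : (𝐐 L).Normal) (hQ : IsElementaryAbelian 2 (𝐐 L)) (hc : T ⊓ 𝐂(𝐐 L) ≤ 𝐐 L)
    (h1 : Nat.card ↥(𝐐 L ⊓ 𝐂(𝐑 L)) ≤ Nat.card K) (g : G) : g ∈ 𝐍(L) := by
  have h2 : ¬ 𝐑 L ≤ M := fun e => hL.nle (k.sup.trans (sup_le e (inf_le_left.trans h.le)))
  obtain ⟨E', hs, hb, h3⟩ := h.main k.blk h2
  obtain rfl := GC.eq_of_cent h hb hL h3 (abelian_cent' hQ.1 le_rfl ((le_inf ((h.ct.W_le_V hb).trans (oz_le _))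
    ((h.ct.W_le_B hb).trans k.le)).trans (core_inf_le le_top)))
  have hN : ∀ x : G, x ∈ 𝐍(𝐐 L) := fun x => (normalizer_eq_top _).ge (mem_top x)
  refine k.norm hQ ((le_inf le_top le_rfl).trans (h.chp.cent_le ((Hall.isPiHallOf_singleton_iff Nat.prime_two).2 h.syl)
    ⟨k.leQ.trans inf_le_left, fun x _ => hN x⟩ hc)) h1 (fun x _ => norm_of_conj_eq
      ((h.ct.conj_eq_or hb hs x).resolve_right fun e => ?_)) (hN g)
  have h4 := card_le_of_le (le_inf (conj_le_of_norm k.W_le (hN x)) ((conj_mono x CS.W_le).trans e))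
  rw [card_conj, ← BG.card_mul_relIndex s.le, Hf.idxD s] at h4
  have h5 := two_le_card (F := K)
  have h6 : 1 * Nat.card K ^ 2 ≤ Nat.card K := (Nat.mul_le_mul_right _ Nat.card_pos).trans (h4.trans h1)
  nlinarith

variable {t : Sec SL(2, K) (Fin 2 → K) L A D}

/-- `B` and `g ⋆ B` are Sylow 2-subgroups of `L` (`|L : B| = |SL₂(K) : U|` is odd as the kernel is `A ≤ B`), so
`l g ∈ 𝐍(B)` for some `l ∈ L`; `l g` preserves `A ⊓ 𝐂(B)`; `Hf.mem_C`. -/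
theorem lin_G [CharP K 2] (h : Hf B A t) (hk : t.pre ⊥ = A) (h1 : g ∈ 𝐍(L)) (h2 : g ∈ 𝐍(A)) :
    ∃ γ : SL(2, K), ∀ x ∈ A, t.ψ x 1 = 0 ↔ (γ • t.ψ (g * x * g⁻¹)) 1 = 0 := by
  have hB : IsPGroup 2 B := fun b => by
    obtain ⟨k, e⟩ := (sylIn_upper (F := K) (p := 2)).2.1 ⟨_, h.up.le (t.rho_mem b.2 (h.le b.2))⟩
    have : (b : G) ^ 2 ^ k ∈ A := hk.le (Sec.mem_K.2 ⟨pow_mem (h.le b.2) _,
      (t.rho_pow (h.le b.2) _).trans (congrArg Subtype.val e)⟩)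
    exact ⟨k + 1, Subtype.ext (by rw [pow_succ, pow_mul, pow_two]; exact el_sq h.el this)⟩
  have h3 : g ⋆ B ≤ L := conj_le_of_norm h.le h1
  obtain ⟨γ, e⟩ := exists_le_conj_upper (t.pgroup_im (hB.map (MulAut.conj g).toMonoidHom))
  obtain ⟨l, hl, rfl⟩ := h.exists_L γ
  have e' : t.pre (upperUnipotentSL2 K) = B := by rw [← h.up, t.pre_im h.le, hk, sup_of_le_left h.leQ]
  have h4 : l⁻¹ * g ∈ 𝐍(B) := mem_normalizer_of_conj_le (by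
    have h5 : l⁻¹ ⋆ (g ⋆ B) ≤ L := conj_le_of_mem h3 (inv_mem hl)
    rw [← conj_conj]
    refine le_trans ((t.im_le_iff h5).1 ?_) e'.le
    rw [t.im_conj (inv_mem hl) h3, t.rho_inv hl]
    exact (conj_mono _ e).trans (inv_conj_conj _ _).le)
  refine ⟨t.ρ l⁻¹, fun x hx => ?_⟩
  have h5 := conj_mem_of_norm h2 hx
  rw [← t.conj _ (inv_mem hl) _ h5, ← h.mem_C hx, ← h.mem_C (t.conj_mem (inv_mem hl) h5),
    mem_normalizer_iff.1 (norm_cent le_rfl h4) x]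
  exact iff_of_eq (congrArg _ (by group))

/-- For `l ∈ L`, `[g, l] ∈ L` acts trivially on `A / D`, so it lies in `A` (`sl_faith`) and `g`, `l` commute on `A`.
Hence `φ x = x⁻¹ * g x g⁻¹ ∈ D` satisfies `φ (l x l⁻¹) = φ x`; `A ⊓ 𝐂[g] ≥ D` contains `[l, x]` and is normalized by
`L`; `Hf.le_or`. -/
theorem fai_G (h : Hf B A t) (hk : t.pre ⊥ = A) (cD : D ≤ 𝐂(L)) (h1 : g ∈ 𝐍(L)) (h2 : g ∈ 𝐍(A))
    (h3 : ∀ x ∈ A, x⁻¹ * (g * x * g⁻¹) ∈ D) (h4 : ∀ d ∈ D, g * d * g⁻¹ = d) : ∀ x ∈ A, g * x * g⁻¹ = x := by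
  have e : ∀ x ∈ A, ⁅g, x⁆ ∈ D := fun x hx => by
    rw [commutatorElement_def, el_comm h.el (conj_mem_of_norm h2 hx) (inv_mem hx)]; exact h3 x hx
  have c : D ≤ 𝐂[g] := fun d hd => mem_cent1.2 (mul_inv_eq_iff_eq_mul.1 (h4 d hd)).symm
  obtain ⟨u, -⟩ := t.exists_ext (L' := 𝐍(A) ⊓ 𝐍(D)) inf_le_left inf_le_right
  have hg : g ∈ 𝐍(A) ⊓ 𝐍(D) := ⟨h2, cent_le_norm D (le_cent1_iff.1 c)⟩
  have h5 : ⁅L, A⁆ ≤ 𝐂[g] := commutator_le.2 fun l hl x hx => by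
    have h6 : ⁅g, l⁆ ∈ A := hk.le ((t.mem_K_iff sl_faith).2 ⟨comm_mem_r h1 hl,
      ((u.mem_K_iff aut_faith).1 (comm_mem_l ((u.mem_K_iff aut_faith).2 ⟨hg, e⟩)
        (u.norm_K ⟨t.norm hl, t.normZ hl⟩))).2⟩)
    have h7 : ⁅g, l * x * l⁻¹⁆ = ⁅g, x⁆ := by
      rw [← mul_inv_cancel_right ⁅g, x⁆ l, ← BG.mem_cent.1 (cD (e x hx)) l hl]
      have := el_comm h.el h6 (t.conj_mem hl (conj_mem_of_norm h2 hx))
      simp only [commutatorElement_def] at this ⊢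
      calc g * (l * x * l⁻¹) * g⁻¹ * (l * x * l⁻¹)⁻¹
          = g * l * g⁻¹ * l⁻¹ * (l * (g * x * g⁻¹) * l⁻¹) * (g * l * g⁻¹ * l⁻¹)⁻¹ * (l * x * l⁻¹)⁻¹ := by group
        _ = _ := by rw [this]; group
    rw [mem_cent1, eq_comm, ← comm_eq_one, commutatorElement_def l, comm_hom h.el h2 (t.conj_mem hl hx)
      (A.inv_mem hx), h7, el_inv h.el hx, el_sq h.el (comm_mem_r h2 hx)]
  have h6 := ((h.le_or (comm_le_right t.norm) (left_norm_comm L A)).resolve_left fun e => by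
    obtain ⟨y, hy, hy'⟩ := h.exists_B 1
    obtain ⟨x, hx, hx'⟩ := h.exists_x
    refine (h.nd hy hx (e (commutator_mem_commutator (h.le hy) hx))).elim (fun e => ?_) hx'
    simpa [hy', xU] using (h.mem_Q_iff hy).1 e).trans (sup_le h5 c)
  exact fun x hx => mul_inv_eq_iff_eq_mul.2 (mem_cent1.1 (h6 hx)).symm

end Cfsg.Lib.MF
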