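import Mathlib

/-!
# S5175: groups generated by anticommuting involutions.  See `docs/MF.md`.
-/

set_option autoImplicit false

namespace Cfsg.Lib.MF

open Subgroup
open scoped commutatorElement

variable {Q : Type*} [Group Q] {n : ℕ} {c : Q} {T : Fin (n + 2) → Q} {A : Subgroup (MulAut Q)} {α β γ : MulAut Q}

/-- `Q` is generated by pairwise anticommuting involutions `T i`, and the `T i`, `T i * c` are all noncentral
involutions. -/
structure Cf (c : Q) (T : Fin (n + 2) → Q) : Prop where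
  cc : c * c = 1
  ne : c ≠ 1
  cen : ∀ i, c * T i = T i * c
  sq : ∀ i, T i * T i = 1
  ac : ∀ i j, i ≠ j → T i * T j = T j * T i * c
  gen : closure (Set.range T) = ⊤
  inv : ∀ x, x * x = 1 → x ∈ center Q ∨ ∃ i, x = T i ∨ x = T i * c

/-- `α` permutes the pairs according to `p`. -/
def Pm (c : Q) (T : Fin (n + 2) → Q) (α : MulAut Q) (p : Equiv.Perm (Fin (n + 2))) : Prop :=
  ∀ i, α (T i) = T (p i) ∨ α (T i) = T (p i) * c

/-- The four-group fixing `0`. -/
def qaV : List (Equiv.Perm (Fin 5)) := [1, Equiv.swap 1 2 * Equiv.swap 3 4, Equiv.swap 1 3 * Equiv.swap 2 4,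
  Equiv.swap 1 2 * Equiv.swap 3 4 * (Equiv.swap 1 3 * Equiv.swap 2 4)]

theorem qa_cj : ∀ g : Equiv.Perm (Fin 5), g 0 ≠ 0 → ∀ u ∈ qaV, ∃ v ∈ qaV, ∃ w ∈ qaV,
    Equiv.swap 0 1 * u * Equiv.swap 0 1 = v * g * w * (v * g)⁻¹ := by decide +kernel

theorem qa_all : ∀ x : Equiv.Perm (Fin 5), Equiv.Perm.sign x = 1 → ∃ a ∈ qaV, ∃ b ∈ qaV, ∃ c ∈ qaV, ∃ d ∈ qaV,
    x = a * (Equiv.swap 0 1 * b * Equiv.swap 0 1) * c * (Equiv.swap 0 1 * d * Equiv.swap 0 1) := by decide +kernel

theorem qa_sign {m : ℕ} {π : MulAut Q →* Equiv.Perm (Fin m)} (ho : Odd (orderOf α)) : Equiv.Perm.sign (π α) = 1 := by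
  have : Equiv.Perm.sign (π α) ^ orderOf α = 1 := by rw [← map_pow, ← map_pow, pow_orderOf_eq_one, map_one, map_one]
  rcases Int.units_eq_one_or (Equiv.Perm.sign (π α)) with e | e
  · exact e
  · rw [e, ho.neg_one_pow] at this
    exact absurd this (by decide)

theorem qa_mem_sq (ho : Odd (orderOf α)) (h : α * α ∈ A) : α ∈ A := by
  obtain ⟨k, hk⟩ := ho
  have : α = (α * α) ^ (k + 1) := by
    rw [← sq, ← pow_mul, show 2 * (k + 1) = 2 * k + 1 + 1 by ring, ← hk, pow_succ, pow_orderOf_eq_one, one_mul]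
  exact this ▸ A.pow_mem h _

/-- Two different normal four-groups of point stabilizers generate `A₅` (`H ⊓ A₅` is 2-transitive, or `decide`:
with `V = {1, a, b, a b}` and `W = g V g⁻¹` we have `A₅ = V W V W`; `W` only depends on `g 0`). -/
theorem alt5_le {H : Subgroup (Equiv.Perm (Fin 5))} (ha : Equiv.swap 1 2 * Equiv.swap 3 4 ∈ H)
    (hb : Equiv.swap 1 3 * Equiv.swap 2 4 ∈ H) {g : Equiv.Perm (Fin 5)} (hg : g ∈ H) (h0 : g 0 ≠ 0) :
    alternatingGroup (Fin 5) ≤ H := by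
  have hV : ∀ v ∈ qaV, v ∈ H := by
    simp only [qaV, List.mem_cons, List.not_mem_nil, or_false, forall_eq_or_imp, forall_eq]
    exact ⟨H.one_mem, ha, hb, H.mul_mem ha hb⟩
  have hW : ∀ u ∈ qaV, Equiv.swap 0 1 * u * Equiv.swap 0 1 ∈ H := fun u hu => by
    obtain ⟨v, hv, w, hw, e⟩ := qa_cj g h0 u hu
    have := H.mul_mem (hV v hv) hg
    exact e ▸ H.mul_mem (H.mul_mem this (hV w hw)) (H.inv_mem this)
  intro x hx
  obtain ⟨a, ha, b, hb, c, hc, d, hd, e⟩ := qa_all x (Equiv.Perm.mem_alternatingGroup.1 hx)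
  exact e ▸ H.mul_mem (H.mul_mem (H.mul_mem (hV a ha) (hW b hb)) (hV c hc)) (hW d hd)

namespace Cf

variable (h : Cf c T)
include h

theorem ext (k : ∀ i, α (T i) = β (T i)) : α = β :=
  MulEquiv.toMonoidHom_injective (MonoidHom.eq_of_eqOn_dense h.gen (by rintro _ ⟨i, rfl⟩; exact k i))

theorem cen' (x : Q) : c * x = x * c := by
  have : closure (Set.range T) ≤ centralizer {c} :=
    (closure_le _).2 (by rintro _ ⟨i, rfl⟩; exact mem_centralizer_singleton_iff.2 (h.cen i).symm)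
  exact (mem_centralizer_singleton_iff.1 (this (h.gen ▸ mem_top x))).symm

theorem mcc (x : Q) : x * c * c = x := by rw [mul_assoc, h.cc, mul_one]

theorem ac' {i j : Fin (n + 2)} (hij : i ≠ j) {x y : Q} (hx : x = T i ∨ x = T i * c) (hy : y = T j ∨ y = T j * c) :
    x * y = y * x * c := by
  have e := h.ac i j hij
  have k : ∀ a b : Q, a * c * b = a * b * c := fun a b => by rw [mul_assoc, h.cen', mul_assoc]
  rcases hx with rfl | rfl <;> rcases hy with rfl | rfl <;> simp only [← mul_assoc, k, e, h.mcc]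

theorem cm' {i : Fin (n + 2)} {x y : Q} (hx : x = T i ∨ x = T i * c) (hy : y = T i ∨ y = T i * c) :
    x * y = y * x := by
  have k : ∀ a b : Q, a * c * b = a * b * c := fun a b => by rw [mul_assoc, h.cen', mul_assoc]
  rcases hx with rfl | rfl <;> rcases hy with rfl | rfl <;> simp only [← mul_assoc, k]

theorem uq {i j : Fin (n + 2)} {x : Q} (hx : x = T i ∨ x = T i * c) (hy : x = T j ∨ x = T j * c) : i = j :=
  by_contra fun hij => h.ne (by simpa using h.ac' hij hx hy)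

theorem ex_im (α : MulAut Q) (i : Fin (n + 2)) : ∃ j, α (T i) = T j ∨ α (T i) = T j * c := by
  refine (h.inv _ (by rw [← map_mul, h.sq, map_one])).resolve_left fun k => ?_
  obtain ⟨j, hj⟩ := exists_ne i
  have := mem_center_iff.1 k (α (T j))
  rw [← map_mul, ← map_mul, h.ac j i hj] at this
  exact h.ne (by simpa using this)

theorem im_ne (α : MulAut Q) {i j k l : Fin (n + 2)} (hij : i ≠ j) (hk : α (T i) = T k ∨ α (T i) = T k * c)
    (hl : α (T j) = T l ∨ α (T j) = T l * c) : k ≠ l := by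
  rintro rfl
  have := h.cm' hk hl
  rw [← map_mul, ← map_mul, h.ac i j hij] at this
  exact h.ne (by simpa using this)

theorem fix_c (α : MulAut Q) : α c = c := by
  obtain ⟨k, hk⟩ := h.ex_im α 0
  obtain ⟨l, hl⟩ := h.ex_im α 1
  have := h.ac' (h.im_ne α zero_ne_one hk hl) hk hl
  rw [← map_mul, h.ac 0 1 zero_ne_one, map_mul, map_mul] at this
  exact mul_left_cancel this

theorem pm_mul {p q : Equiv.Perm (Fin (n + 2))} (h1 : Pm c T α p) (h2 : Pm c T β q) : Pm c T (α * β) (p * q) := by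
  intro i
  rw [MulAut.mul_apply, Equiv.Perm.mul_apply]
  rcases h2 i with e | e <;> rcases h1 (q i) with e' | e' <;> simp [e, e', h.fix_c, h.mcc]

/-- `c` is central; `T i ∉ center`; `T i = T j` or `T i = T j * c` forces `i = j`; `α c = c` as
`c = ⁅T 0, T 1⁆` and `α (T 0)`, `α (T 1)` are noncommuting noncentral involutions.  Define `π` by choice; injective since
`α (T i)`, `α (T j)` do not commute. -/
theorem exists_perm : ∃ π : MulAut Q →* Equiv.Perm (Fin (n + 2)), (∀ α : MulAut Q, α c = c) ∧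
    ∀ α p, Pm c T α p ↔ π α = p := by
  have uq : ∀ {α p q}, Pm c T α p → Pm c T α q → p = q := fun k k' => Equiv.ext fun i => h.uq (k i) (k' i)
  have ex : ∀ α, ∃ p, Pm c T α p := fun α => by
    choose f hf using h.ex_im α
    exact ⟨Equiv.ofBijective f (Finite.injective_iff_bijective.1 fun i j e =>
      by_contra fun hij => h.im_ne α hij (hf i) (hf j) e), hf⟩
  choose π hπ using ex
  exact ⟨MonoidHom.mk' π fun α β => uq (hπ _) (h.pm_mul (hπ α) (hπ β)), h.fix_c,
    fun α p => ⟨uq (hπ α), fun e => e ▸ hπ α⟩⟩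

/-- Conjugation by the product `g` of the `T j` with `γ (T j) = T j * c` (a list product over a filter of
`List.finRange`; conjugation by `T j` changes the sign of all `T i`, `i ≠ j`). -/
theorem ker (k : Pm c T γ 1) : ∃ g : Q, (∀ i, γ (T i) = g * T i * g⁻¹) ∨ ∀ i, γ (T i) = g * T i * g⁻¹ * c := by
  have key : ∀ S : Finset (Fin (n + 2)), ∃ g : Q, (∀ i, (if i ∈ S then T i * c else T i) = g * T i * g⁻¹) ∨
      ∀ i, (if i ∈ S then T i * c else T i) = g * T i * g⁻¹ * c := by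
    intro S
    induction S using Finset.induction_on with
    | empty => exact ⟨1, .inl (by simp)⟩
    | insert j S hj ih =>
      obtain ⟨g, hg⟩ := ih
      have e : ∀ i, g * T j * T i * (g * T j)⁻¹ = if i = j then g * T i * g⁻¹ else g * T i * g⁻¹ * c := fun i => by
        split_ifs with e
        · rw [e]; group
        · rw [mul_assoc g, h.ac j i (Ne.symm e), ← h.cen', ← mul_assoc g, ← h.cen' g, ← h.cen']
          group
      refine ⟨g * T j, hg.symm.imp (fun hg i => ?_) fun hg i => ?_⟩ <;> have := hg i <;> rw [e] <;>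
        by_cases e' : i = j
      · subst e'
        rw [if_neg hj] at this
        rw [if_pos (Finset.mem_insert_self _ _), if_pos rfl, ← h.mcc (g * T i * g⁻¹), ← this]
      · simpa [e'] using this
      · subst e'
        rw [if_neg hj] at this
        rw [if_pos (Finset.mem_insert_self _ _), if_pos rfl, ← this]
      · simpa [e', h.mcc] using this
  classical
  obtain ⟨g, hg⟩ := key {i | γ (T i) = T i * c}
  have e : ∀ i, γ (T i) = if i ∈ ({i | γ (T i) = T i * c} : Finset _) then T i * c else T i := fun i => by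
    split_ifs with e
    · simpa using e
    · exact (k i).resolve_right (by simpa using e)
  exact ⟨g, hg.imp (fun hg i => (e i).trans (hg i)) fun hg i => (e i).trans (hg i)⟩

/-- By `ker`, `α = β κ ι` with `κ` inner and `ι = 1` or `ι (T i) = T i * c` for all `i`; such a `ι` is a central involution of
`MulAut Q` (`gen`).  So `α² ∈ A`, and `α` is a power of `α²`. -/
theorem mem_of_pm (hA : (MulAut.conj : Q →* MulAut Q).range ≤ A) (ho : Odd (orderOf α)) (hβ : β ∈ A)
    {p : Equiv.Perm (Fin (n + 2))} (h1 : Pm c T α p) (h2 : Pm c T β p) : α ∈ A := by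
  obtain ⟨π, -, hπ⟩ := h.exists_perm
  obtain ⟨g, hg | hg⟩ := h.ker (γ := β⁻¹ * α) ((hπ _ _).2 (by
    rw [map_mul, map_inv, (hπ _ _).1 h1, (hπ _ _).1 h2, inv_mul_cancel]))
  · have : β⁻¹ * α = MulAut.conj g := h.ext hg
    rw [inv_mul_eq_iff_eq_mul.1 this]
    exact A.mul_mem hβ (hA ⟨g, rfl⟩)
  · obtain ⟨ι, hι⟩ : ∃ ι, α = β * MulAut.conj g * ι := ⟨(β * MulAut.conj g)⁻¹ * α, by group⟩
    have e : ∀ i, ι (T i) = T i * c := fun i => (MulAut.conj g).injective (by
      have := hg i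
      rw [hι, mul_assoc, inv_mul_cancel_left, MulAut.mul_apply] at this
      rw [this, map_mul, h.fix_c, MulAut.conj_apply])
    have e1 : ι * ι = 1 := h.ext fun i => by simp [e, h.fix_c, h.mcc]
    have e2 : ∀ φ : MulAut Q, ι * φ = φ * ι := fun φ => h.ext fun i => by
      obtain ⟨j, hj | hj⟩ := h.ex_im φ i <;> simp [e, hj, h.fix_c]
    have hκ := A.mul_mem hβ (hA ⟨g, rfl⟩)
    refine qa_mem_sq ho ?_
    rw [hι, mul_assoc, ← mul_assoc ι, e2, mul_assoc _ ι, e1, mul_one]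
    exact A.mul_mem hκ hκ

end Cf

/-- `π β ≠ 1` (elements of the kernel have square one), permutations of odd order are even, `A₃ = ⟨π β⟩` (`decide`). -/
theorem Cf.odd3 {T : Fin 3 → Q} (h : Cf (n := 1) c T) (hA : (MulAut.conj : Q →* MulAut Q).range ≤ A) (hβ : β ∈ A)
    (h1 : Odd (orderOf β)) (h2 : β ≠ 1) (ho : Odd (orderOf α)) : α ∈ A := by
  obtain ⟨π, -, hπ⟩ := h.exists_perm
  have k : π β ≠ 1 := fun e => h2 (by
    have e1 := (hπ _ _).2 e
    have : β * β = 1 := h.ext fun i => by rcases e1 i with e' | e' <;> simp_all [h.fix_c, h.mcc]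
    simpa using qa_mem_sq (A := ⊥) h1 (by simp [this]))
  have d : ∀ p q : Equiv.Perm (Fin 3), Equiv.Perm.sign p = 1 → Equiv.Perm.sign q = 1 → q ≠ 1 →
      p = 1 ∨ p = q ∨ p = q * q := by decide
  rcases d (π α) (π β) (qa_sign ho) (qa_sign h1) k with e | e | e
  · exact h.mem_of_pm hA ho A.one_mem ((hπ _ _).2 e) ((hπ _ _).2 (map_one π))
  · exact h.mem_of_pm hA ho hβ ((hπ _ _).2 e) ((hπ _ _).2 rfl)
  · exact h.mem_of_pm hA ho (A.mul_mem hβ hβ) ((hπ _ _).2 e) ((hπ _ _).2 (map_mul π _ _))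

/-- `alt5_le` for `A.map π`. -/
theorem Cf.odd5 {T : Fin 5 → Q} (h : Cf (n := 3) c T) (hA : (MulAut.conj : Q →* MulAut Q).range ≤ A) {β' : MulAut Q}
    (hβ : β ∈ A) (hβ' : β' ∈ A) (hγ : γ ∈ A) (h1 : Pm (n := 3) c T β (Equiv.swap 1 2 * Equiv.swap 3 4))
    (h2 : Pm (n := 3) c T β' (Equiv.swap 1 3 * Equiv.swap 2 4)) (h3 : γ (T 0) ≠ T 0) (h4 : γ (T 0) ≠ T 0 * c)
    (ho : Odd (orderOf α)) : α ∈ A := by
  obtain ⟨π, -, hπ⟩ := h.exists_perm
  obtain ⟨δ, hδ, e⟩ := alt5_le (H := A.map π) ⟨β, hβ, (hπ _ _).1 h1⟩ ⟨β', hβ', (hπ _ _).1 h2⟩ ⟨γ, hγ, rfl⟩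
    (fun e => by
      have := (hπ γ _).2 rfl 0
      rw [e] at this
      exact this.elim h3 h4) (Equiv.Perm.mem_alternatingGroup.2 (qa_sign (π := π) ho))
  exact h.mem_of_pm hA ho hδ ((hπ _ _).2 rfl) ((hπ _ _).2 e)

end Cfsg.Lib.MF
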