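import Mathlib

/-!
# S5175: the model `U K` of the unipotent group of `Sp₄(K)` in characteristic two.  See `docs/MF.md`.

`⟨a, b, c, d⟩ = x(a) y(b) z(c) d(d)` with `[x(u), y(v)] = z(uv) d(u²v)`.  Modulo the `d`-coordinate this is `UT₃(K)`.
-/

set_option autoImplicit false

namespace Cfsg.Lib.MF

open Subgroup

/-- Coordinates. -/
@[ext] structure U (K : Type) where
  a : K
  b : K
  c : K
  d : K

variable {K : Type} [Field K] [CharP K 2]

theorem two0 : (2 : K) = 0 := CharTwo.two_eq_zero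

namespace U

instance instMul : Mul (U K) := ⟨fun g h => ⟨g.a + h.a, g.b + h.b, g.c + h.c + h.a * g.b, g.d + h.d + h.a ^ 2 * g.b⟩⟩
instance instOne : One (U K) := ⟨⟨0, 0, 0, 0⟩⟩
instance instInv : Inv (U K) := ⟨fun g => ⟨g.a, g.b, g.c + g.a * g.b, g.d + g.a ^ 2 * g.b⟩⟩

omit [CharP K 2] in
@[simp] theorem mul_a (g h : U K) : (g * h).a = g.a + h.a := rfl
omit [CharP K 2] in
@[simp] theorem mul_b (g h : U K) : (g * h).b = g.b + h.b := rfl
omit [CharP K 2] in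
@[simp] theorem mul_c (g h : U K) : (g * h).c = g.c + h.c + h.a * g.b := rfl
omit [CharP K 2] in
@[simp] theorem mul_d (g h : U K) : (g * h).d = g.d + h.d + h.a ^ 2 * g.b := rfl
omit [CharP K 2] in
@[simp] theorem one_a : (1 : U K).a = 0 := rfl
omit [CharP K 2] in
@[simp] theorem one_b : (1 : U K).b = 0 := rfl
omit [CharP K 2] in
@[simp] theorem one_c : (1 : U K).c = 0 := rfl
omit [CharP K 2] in
@[simp] theorem one_d : (1 : U K).d = 0 := rfl
omit [CharP K 2] in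
@[simp] theorem inv_a (g : U K) : g⁻¹.a = g.a := rfl
omit [CharP K 2] in
@[simp] theorem inv_b (g : U K) : g⁻¹.b = g.b := rfl
omit [CharP K 2] in
@[simp] theorem inv_c (g : U K) : g⁻¹.c = g.c + g.a * g.b := rfl
omit [CharP K 2] in
@[simp] theorem inv_d (g : U K) : g⁻¹.d = g.d + g.a ^ 2 * g.b := rfl

instance instGroup : Group (U K) := Group.ofLeftAxioms
  (fun g h k => by ext <;> simp <;> grind)
  (fun g => by ext <;> simp)
  (fun g => by ext <;> simp <;> grind)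

/-- The coordinates. -/
def equiv (K : Type) : U K ≃ K × K × K × K where
  toFun g := (g.a, g.b, g.c, g.d)
  invFun p := ⟨p.1, p.2.1, p.2.2.1, p.2.2.2⟩

instance instFinite {K : Type} [Finite K] : Finite (U K) := .of_equiv _ (equiv K).symm

theorem card (K : Type) : Nat.card (U K) = Nat.card K ^ 4 := by
  rw [Nat.card_congr (equiv K)]; simp only [Nat.card_prod]; ring

end U

/-- The root elements. -/
def ux (u : K) : U K := ⟨u, 0, 0, 0⟩
/-- The root elements. -/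
def uy (u : K) : U K := ⟨0, u, 0, 0⟩
/-- The root elements. -/
def uz (u : K) : U K := ⟨0, 0, u, 0⟩
/-- The root elements. -/
def ud (u : K) : U K := ⟨0, 0, 0, u⟩

omit [CharP K 2] in
theorem eq_prod (g : U K) : g = ux g.a * uy g.b * uz g.c * ud g.d := by ext <;> simp [ux, uy, uz, ud]

variable (K)

/-- `A`. -/
def uA : Subgroup (U K) where
  carrier := {g | g.b = 0}
  one_mem' := rfl
  mul_mem' := fun {g h} (a : g.b = 0) (b : h.b = 0) => show g.b + h.b = 0 by rw [a, b, add_zero]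
  inv_mem' := fun a => a

/-- `A'`. -/
def uA' : Subgroup (U K) where
  carrier := {g | g.a = 0}
  one_mem' := rfl
  mul_mem' := fun {g h} (a : g.a = 0) (b : h.a = 0) => show g.a + h.a = 0 by rw [a, b, add_zero]
  inv_mem' := fun a => a

/-- `C₀ = A ∩ A' = Z(B)`. -/
def uC : Subgroup (U K) := uA' K ⊓ uA K

/-- `D`. -/
def uD : Subgroup (U K) where
  carrier := {g | g.a = 0 ∧ g.b = 0 ∧ g.c = 0}
  one_mem' := ⟨rfl, rfl, rfl⟩
  mul_mem' := fun a b => by simp_all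
  inv_mem' := fun a => by simp_all

/-- `Z`. -/
def uZ : Subgroup (U K) where
  carrier := {g | g.a = 0 ∧ g.b = 0 ∧ g.d = 0}
  one_mem' := ⟨rfl, rfl, rfl⟩
  mul_mem' := fun a b => by simp_all
  inv_mem' := fun a => by simp_all

/-- `X`. -/
def uX : Subgroup (U K) where
  carrier := {g | g.b = 0 ∧ g.c = 0 ∧ g.d = 0}
  one_mem' := ⟨rfl, rfl, rfl⟩
  mul_mem' := fun a b => by simp_all
  inv_mem' := fun a => by simp_all

/-- `Y`. -/
def uY : Subgroup (U K) where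
  carrier := {g | g.a = 0 ∧ g.c = 0 ∧ g.d = 0}
  one_mem' := ⟨rfl, rfl, rfl⟩
  mul_mem' := fun a b => by simp_all
  inv_mem' := fun a => by simp_all

variable {K}

/-- `B₁ = [B, s] C₀`. -/
def uB1 (σ : K ≃+* K) : Subgroup (U K) where
  carrier := {g | g.a = σ g.b}
  one_mem' := by simp
  mul_mem' := fun a b => by simp_all
  inv_mem' := fun a => a

variable {g : U K}

@[simp] theorem mem_uA : g ∈ uA K ↔ g.b = 0 := Iff.rfl
@[simp] theorem mem_uA' : g ∈ uA' K ↔ g.a = 0 := Iff.rfl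
@[simp] theorem mem_uC : g ∈ uC K ↔ g.a = 0 ∧ g.b = 0 := Iff.rfl
@[simp] theorem mem_uD : g ∈ uD K ↔ g.a = 0 ∧ g.b = 0 ∧ g.c = 0 := Iff.rfl
@[simp] theorem mem_uZ : g ∈ uZ K ↔ g.a = 0 ∧ g.b = 0 ∧ g.d = 0 := Iff.rfl
@[simp] theorem mem_uX : g ∈ uX K ↔ g.b = 0 ∧ g.c = 0 ∧ g.d = 0 := Iff.rfl
@[simp] theorem mem_uY : g ∈ uY K ↔ g.a = 0 ∧ g.c = 0 ∧ g.d = 0 := Iff.rfl
@[simp] theorem mem_uB1 {σ : K ≃+* K} : g ∈ uB1 σ ↔ g.a = σ g.b := Iff.rfl

/-- Diagonal and field automorphisms. -/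
def tw (a b : K) (σ : K ≃+* K) : U K →* U K :=
  MonoidHom.mk' (fun g => ⟨a * σ g.a, b * σ g.b, a * b * σ g.c, a ^ 2 * b * σ g.d⟩) fun g h => by
    ext <;> simp <;> ring

@[simp] theorem tw_a (a b : K) (σ : K ≃+* K) (g : U K) : (tw a b σ g).a = a * σ g.a := rfl
@[simp] theorem tw_b (a b : K) (σ : K ≃+* K) (g : U K) : (tw a b σ g).b = b * σ g.b := rfl
@[simp] theorem tw_c (a b : K) (σ : K ≃+* K) (g : U K) : (tw a b σ g).c = a * b * σ g.c := rfl
@[simp] theorem tw_d (a b : K) (σ : K ≃+* K) (g : U K) : (tw a b σ g).d = a ^ 2 * b * σ g.d := rfl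

/-- The Weyl elements (acting on `A`). -/
def wy (l : K) (g : U K) : U K := ⟨g.c / l, 0, l * g.a, g.d⟩

variable {G : Type*} [Group G]

/-- The case `B ≅ UT₃(K)`. -/
def L3 (e : U K →* G) : Prop := ∀ t, e (ud t) = 1

/-- Coordinates on `B = e.range`. -/
structure Co (e : U K →* G) : Prop where
  ker : ∀ g, e g = 1 → g ∈ uD K
  dich : L3 e ∨ Function.Injective e

/-- `α` acts on `B` as the standard graph automorphism with parameter `σ`. -/
structure Gr (e : U K →* G) (α : G → G) (σ : K ≃+* K) : Prop where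
  x : ∀ u, α (e (ux u)) = e (uy (σ.symm u))
  y : ∀ v, α (e (uy v)) = e (ux (σ v))
  zd : (L3 e ∧ (∀ a, σ (σ a) = a) ∧ ∀ w, α (e (uz w)) = e (uz (σ w))) ∨
    (Function.Injective e ∧ (∀ a, σ (σ (a ^ 2)) = a) ∧ (∀ w, α (e (uz w)) = e (ud (σ.symm w))) ∧
      ∀ t, α (e (ud t)) = e (uz (σ t)))

/-- The involution `s` induces the standard graph automorphism. -/
structure Sw (e : U K →* G) (s : G) (σ : K ≃+* K) : Prop extends Gr e (fun g => s * g * s⁻¹) σ where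
  sq : s * s = 1

/-- `α` acts on `B` as `tw a b σ`. -/
def Tw (e : U K →* G) (α : G → G) (a b : K) (σ : K ≃+* K) : Prop :=
  a ≠ 0 ∧ b ≠ 0 ∧ ∀ g, α (e g) = e (tw a b σ g)

/-- `α` maps `P` into `Q` (in coordinates). -/
def Mp (e : U K →* G) (α : G → G) (P Q : Subgroup (U K)) : Prop := ∀ g ∈ P, α (e g) ∈ Q.map e

/-- `α` preserves the root subgroups. -/
def Mon (e : U K →* G) (α : G → G) : Prop :=
  Mp e α (uX K) (uX K) ∧ Mp e α (uY K) (uY K) ∧ Mp e α (uZ K) (uZ K) ∧ Mp e α (uD K) (uD K)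

/-- `α` interchanges the root subgroups. -/
def Swp (e : U K →* G) (α : G → G) : Prop :=
  Mp e α (uX K) (uY K) ∧ Mp e α (uY K) (uX K) ∧
    (L3 e ∧ Mp e α (uZ K) (uZ K) ∨ Function.Injective e ∧ Mp e α (uZ K) (uD K) ∧ Mp e α (uD K) (uZ K))

/-- The torus of the simple group. -/
def Tor (e : U K →* G) (a b : K) : Prop :=
  a ≠ 0 ∧ b ≠ 0 ∧ (L3 e → ∃ l m : K, a = m ^ 2 / l ∧ b = l ^ 2 / m)

/-- `|C₀| = 4` and `s` does not centralize `C₀`. -/
def Spc (e : U K →* G) (σ : K ≃+* K) : Prop :=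
  (L3 e ∧ Nat.card K = 4 ∧ σ ≠ RingEquiv.refl K) ∨ (Function.Injective e ∧ Nat.card K = 2)

/-- The exceptional candidate `Q = B₁⟨s⟩` for an essential subgroup. -/
def sQ (e : U K →* G) (s : G) (σ : K ≃+* K) : Subgroup G := (uB1 σ).map e ⊔ zpowers s

/-- `G = B⟨s⟩` with `|A| > 4`. -/
structure Sc (e : U K →* G) (s : G) (σ : K ≃+* K) : Prop where
  co : Co e
  sw : Sw e s σ
  top : ∀ g, g ∈ e.range ∨ s * g ∈ e.range
  big : 2 < Nat.card K ∨ Function.Injective e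

/-- The configuration inside a finite group with Sylow subgroup `B⟨s⟩`. -/
structure Gd (e : U K →* G) (s w : G) (σ : K ≃+* K) : Prop where
  co : Co e
  sw : Sw e s σ
  wy : ∀ g ∈ uA K, w * e g * w⁻¹ = e (wy 1 g)
  card : ∃ k, Odd k ∧ Nat.card G = 2 * Nat.card e.range * k

/-- Realization data: `G = PSL₃(K)` or `PSp₄(K)`, `O` the group of standard automorphisms. -/
structure Rd (e : U K →* G) (w : G) (O : Subgroup (MulAut G)) : Prop where
  co : Co e
  odd : Odd e.range.index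
  cen : center G = ⊥
  wy : ∀ g ∈ uA K, w * e g * w⁻¹ = e (wy 1 g)
  bor : ∀ h : G, (∀ g, h * e g * h⁻¹ ∈ e.range) →
    ∃ u a b, Tor e a b ∧ ∀ g, h * e g * h⁻¹ = e (u * tw a b (RingEquiv.refl K) g * u⁻¹)
  pres : ∀ β ∈ O, Mon e β ∨ Swp e β
  faith : ∀ β ∈ O, (∀ g, β (e g) = e g) → β = 1
  tw : ∀ a b σ, a ≠ 0 → b ≠ 0 → ∃ β ∈ O, Tw e β a b σ
  gr : ∀ σ : K ≃+* K, (L3 e ∧ ∀ a, σ (σ a) = a) ∨ (Function.Injective e ∧ ∀ a, σ (σ (a ^ 2)) = a) →
    ∃ β ∈ O, Gr e β σ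

/-- A homomorphism from root elements with the commutator relation. -/
theorem exists_hom (x y z d : K → G) (hx : ∀ u v, x (u + v) = x u * x v) (hy : ∀ u v, y (u + v) = y u * y v)
    (hz : ∀ u v, z (u + v) = z u * z v) (hd : ∀ u v, d (u + v) = d u * d v)
    (zx : ∀ u v, z u * x v = x v * z u) (zy : ∀ u v, z u * y v = y v * z u)
    (dx : ∀ u v, d u * x v = x v * d u) (dy : ∀ u v, d u * y v = y v * d u) (dz : ∀ u v, d u * z v = z v * d u)
    (yx : ∀ u v, y v * x u = x u * y v * z (u * v) * d (u ^ 2 * v)) :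
    ∃ e : U K →* G, ∀ g, e g = x g.a * y g.b * z g.c * d g.d := by
  refine ⟨MonoidHom.mk' (fun g => x g.a * y g.b * z g.c * d g.d) fun g h => ?_, fun _ => rfl⟩
  have zz : ∀ u v, z u * z v = z v * z u := fun u v => by rw [← hz, ← hz, add_comm]
  have dd : ∀ u v, d u * d v = d v * d u := fun u v => by rw [← hd, ← hd, add_comm]
  simp only [U.mul_a, U.mul_b, U.mul_c, U.mul_d, hx, hy, hz, hd]
  have c1 : ∀ u v, Commute (z u) (x v) := zx
  have c2 : ∀ u v, Commute (z u) (y v) := zy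
  have c3 : ∀ u v, Commute (d u) (x v) := dx
  have c4 : ∀ u v, Commute (d u) (y v) := dy
  have c5 : ∀ u v, Commute (d u) (z v) := dz
  have c6 : ∀ u v, Commute (z u) (z v) := zz
  have c7 : ∀ u v, Commute (d u) (d v) := dd
  have e1 : z g.c * d g.d * (x h.a * y h.b) = x h.a * y h.b * (z g.c * d g.d) :=
    (((c1 _ _).mul_right (c2 _ _)).mul_left ((c3 _ _).mul_right (c4 _ _))).eq
  have e2 : z (h.a * g.b) * d (h.a ^ 2 * g.b) * y h.b = y h.b * (z (h.a * g.b) * d (h.a ^ 2 * g.b)) :=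
    ((c2 _ _).mul_left (c4 _ _)).eq
  have e3 : z (h.a * g.b) * d (h.a ^ 2 * g.b) * (z g.c * d g.d * (z h.c * d h.d)) =
      z g.c * z h.c * z (h.a * g.b) * (d g.d * d h.d * d (h.a ^ 2 * g.b)) := by
    have k1 : d g.d * z h.c = z h.c * d g.d := dz _ _
    have k2 : d (h.a ^ 2 * g.b) * (z g.c * z h.c * (d g.d * d h.d)) =
        z g.c * z h.c * (d g.d * d h.d) * d (h.a ^ 2 * g.b) :=
      (((c5 _ _).mul_right (c5 _ _)).mul_right ((c7 _ _).mul_right (c7 _ _))).eq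
    have k3 : z (h.a * g.b) * (z g.c * z h.c) = z g.c * z h.c * z (h.a * g.b) :=
      ((c6 _ _).mul_right (c6 _ _)).eq
    calc _ = z (h.a * g.b) * (d (h.a ^ 2 * g.b) * (z g.c * (d g.d * z h.c) * d h.d)) := by group
      _ = z (h.a * g.b) * (d (h.a ^ 2 * g.b) * (z g.c * z h.c * (d g.d * d h.d))) := by rw [k1]; group
      _ = z (h.a * g.b) * (z g.c * z h.c) * (d g.d * d h.d * d (h.a ^ 2 * g.b)) := by rw [k2]; group
      _ = _ := by rw [k3]
  calc _ = x g.a * x h.a * y g.b * (y h.b * (z (h.a * g.b) * d (h.a ^ 2 * g.b))) *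
        (z g.c * d g.d * (z h.c * d h.d)) := by
        rw [mul_assoc _ (y h.b * _), mul_assoc (y h.b), e3]; group
    _ = x g.a * (x h.a * y g.b * z (h.a * g.b) * d (h.a ^ 2 * g.b)) * (y h.b * (z g.c * d g.d)) *
        (z h.c * d h.d) := by rw [← e2]; group
    _ = x g.a * y g.b * (x h.a * y h.b * (z g.c * d g.d)) * (z h.c * d h.d) := by rw [← yx]; group
    _ = _ := by rw [← e1]; group

end Cfsg.Lib.MF
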